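import Mathlib
import Cfsg.Prelude.Def_Blocks
import Cfsg.Agent.Blocks.LocalRing

/-!
# Units and parity of exponents

`O` a subring of the field `K`, `π ∈ O`, `π⁻¹ ∉ O`, every nonzero element of `K` is a power of `π` times a unit of `O`.
-/

set_option autoImplicit false

open Cfsg

namespace Cfsg.Agent.H703.KS

variable {K : Type*} [Field K] {O : Subring K} {π : K}

/-- units of `O` -/
def Un (O : Subring K) (z : K) : Prop := z ∈ O ∧ z⁻¹ ∈ O ∧ z ≠ 0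

theorem Un.one : Un O 1 := ⟨O.one_mem, by simp [O.one_mem], one_ne_zero⟩

theorem Un.mul {z w : K} (hz : Un O z) (hw : Un O w) : Un O (z * w) :=
  ⟨O.mul_mem hz.1 hw.1, by rw [mul_inv]; exact O.mul_mem hz.2.1 hw.2.1, mul_ne_zero hz.2.2 hw.2.2⟩

theorem Un.inv {z : K} (hz : Un O z) : Un O z⁻¹ :=
  ⟨hz.2.1, by rw [inv_inv]; exact hz.1, inv_ne_zero hz.2.2⟩

theorem Un.pow {z : K} (hz : Un O z) (n : ℕ) : Un O (z ^ n) := by
  induction n with
  | zero => simpa using Un.one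
  | succ n ih => rw [pow_succ]; exact ih.mul hz

theorem Un.prod {X : Type*} (s : Finset X) {f : X → K} (h : ∀ x ∈ s, Un O (f x)) : Un O (∏ x ∈ s, f x) := by
  classical
  induction s using Finset.induction_on with
  | empty => simpa using Un.one
  | insert a s ha ih =>
    rw [Finset.prod_insert ha]
    exact (h a (Finset.mem_insert_self _ _)).mul (ih fun x hx => h x (Finset.mem_insert_of_mem hx))

theorem zpow_eq_zero_of_unit (hπ : π ∈ O) (hπ' : π⁻¹ ∉ O) {k : ℤ} (h : Un O (π ^ k)) : k = 0 := by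
  have hπ0 : π ≠ 0 := by
    rintro rfl
    exact hπ' (by simp)
  rcases lt_trichotomy k 0 with hk | hk | hk
  · exfalso
    apply hπ'
    have h1 : π⁻¹ = π ^ (-k - 1).toNat * π ^ k := by
      rw [← zpow_natCast, ← zpow_add₀ hπ0, ← zpow_neg_one]
      congr 1
      omega
    rw [h1]
    exact O.mul_mem (O.pow_mem hπ _) h.1
  · exact hk
  · exfalso
    apply hπ'
    have h1 : π⁻¹ = π ^ (k - 1).toNat * (π ^ k)⁻¹ := by
      rw [← zpow_natCast, ← zpow_neg, ← zpow_add₀ hπ0, ← zpow_neg_one]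
      congr 1
      omega
    rw [h1]
    exact O.mul_mem (O.pow_mem hπ _) h.2.1

theorem even_sum (hπ : π ∈ O) (hπ' : π⁻¹ ∉ O)
    (hfac : ∀ z : K, z ≠ 0 → ∃ (n : ℤ) (u : K), u ∈ O ∧ u⁻¹ ∈ O ∧ z = π ^ n * u)
    {X : Type*} [Fintype X] {r : X → K} {k n : X → ℕ} {u : X → K} (hu : ∀ x, Un O (u x))
    (hr : ∀ x, r x = (π ^ k x)⁻¹ * u x) {d : K} (hd : d ≠ 0) (h : d ^ 2 * ∏ x, r x ^ n x ∈ O)
    (h' : (d ^ 2 * ∏ x, r x ^ n x)⁻¹ ∈ O) : Even (∑ x, n x * k x) := by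
  have hπ0 : π ≠ 0 := by
    rintro rfl
    exact hπ' (by simp)
  obtain ⟨N, w, hw, hw', hdw⟩ := hfac d hd
  have hw0 : w ≠ 0 := by
    rintro rfl
    exact hd (by rw [hdw, mul_zero])
  have hprod : ∏ x, r x ^ n x = (π ^ (∑ x, n x * k x))⁻¹ * ∏ x, u x ^ n x := by
    rw [← Finset.prod_pow_eq_pow_sum, ← Finset.prod_inv_distrib, ← Finset.prod_mul_distrib]
    refine Finset.prod_congr rfl fun x _ => ?_
    rw [hr x, mul_pow, inv_pow, ← pow_mul, mul_comm (k x)]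
  have hU : Un O (∏ x, u x ^ n x) := Un.prod _ fun x _ => (hu x).pow _
  have hr0 : ∀ x, r x ≠ 0 := fun x => by
    rw [hr x]
    exact mul_ne_zero (inv_ne_zero (pow_ne_zero _ hπ0)) (hu x).2.2
  have hA : Un O (d ^ 2 * ∏ x, r x ^ n x) :=
    ⟨h, h', mul_ne_zero (pow_ne_zero _ hd) (Finset.prod_ne_zero_iff.2 fun x _ => pow_ne_zero _ (hr0 x))⟩
  have hW : Un O (w ^ 2 * ∏ x, u x ^ n x) := (Un.pow ⟨hw, hw', hw0⟩ 2).mul hU
  have h1 : π ^ (2 * N - (∑ x, n x * k x : ℕ)) = (d ^ 2 * ∏ x, r x ^ n x) * (w ^ 2 * ∏ x, u x ^ n x)⁻¹ := by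
    rw [hprod, hdw, zpow_sub₀ hπ0, zpow_natCast, mul_pow, ← zpow_natCast (π ^ N) 2, ← zpow_mul, mul_comm N]
    have h2 := hU.2.2
    push_cast
    field_simp
  have h3 := zpow_eq_zero_of_unit hπ hπ' (k := 2 * N - (∑ x, n x * k x : ℕ)) (by rw [h1]; exact hA.mul hW.inv)
  rw [← Int.even_coe_nat]
  refine ⟨N, ?_⟩
  omega

end Cfsg.Agent.H703.KS
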